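import Cfsg.Agent.H382.JM.L52Rel

/-!
# S5580, row `L₅(2)`: the elements of order 3 commuting with `f` (helper382)
-/

set_option autoImplicit false

open Cfsg

namespace Cfsg.Agent.H382.JM.L52

open Subgroup
open Cfsg.Agent.H382.JM.L52Data

local notation "𝒢" => Cfsg.Spor.J4

instance finite_J4 : Finite 𝒢 := Cfsg.Agent.H858.FixJ4.facts.1

/-- the elements `c i` commuting with `f` -/
def T : Set 𝒢 := {x | (∃ i < 224, x = c i) ∧ x * f = f * x}

/-- the stabilizer of `T` -/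
def N : Subgroup 𝒢 where
  carrier := {g | ∀ x ∈ T, g * x * g⁻¹ ∈ T}
  one_mem' := fun x hx => by
    have : (1 : 𝒢) * x * 1⁻¹ = x := by group
    rw [this]; exact hx
  mul_mem' := fun {g h} hg hh x hx => by
    have : g * h * x * (g * h)⁻¹ = g * (h * x * h⁻¹) * g⁻¹ := by group
    rw [this]
    exact hg _ (hh x hx)
  inv_mem' := fun {g} hg x hx => by
    have hp : ∀ n : ℕ, ∀ x ∈ T, g ^ n * x * (g ^ n)⁻¹ ∈ T := by
      intro n
      induction n with
      | zero =>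
        intro x hx
        have : g ^ 0 * x * (g ^ 0)⁻¹ = x := by group
        rw [this]; exact hx
      | succ n ih =>
        intro x hx
        have : g ^ (n + 1) * x * (g ^ (n + 1))⁻¹ = g * (g ^ n * x * (g ^ n)⁻¹) * g⁻¹ := by
          rw [pow_succ']; group
        rw [this]
        exact hg _ (ih x hx)
    have h1 : g⁻¹ ∈ Subgroup.zpowers g := inv_mem (mem_zpowers g)
    rw [← mem_powers_iff_mem_zpowers] at h1
    obtain ⟨n, hn⟩ := h1
    have hn' : g ^ n = g⁻¹ := hn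
    rw [← hn']
    exact hp n x hx

theorem conj_comm {g x : 𝒢} (hg : g * f = f * g) (hx : x * f = f * x) : g * x * g⁻¹ * f = f * (g * x * g⁻¹) := by
  have h1 : Commute (g * x * g⁻¹) f :=
    ((show Commute g f from hg).mul_left (show Commute x f from hx)).mul_left (show Commute g f from hg).inv_left
  exact h1.eq

theorem s_f : s * f = f * s := by
  rw [s_eq, f_eq]; exact H858.Elem.f_mul_s.symm

theorem j_f : j * f = f * j := by
  rw [j_eq, f_eq]; exact H858.Elem.j_mul_f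

theorem ps_lt : ∀ i < 224, ps.getD i 0 < 224 := by decide +kernel
theorem pj_lt : ∀ i < 224, pj.getD i 0 < 224 := by decide +kernel

theorem s_mem : s ∈ N := by
  rintro x ⟨⟨i, hi, rfl⟩, hx⟩
  refine ⟨⟨_, ps_lt i hi, ?_⟩, conj_comm s_f hx⟩
  rw [s_c hi, mul_inv_cancel_right]

theorem j_mem : j ∈ N := by
  rintro x ⟨⟨i, hi, rfl⟩, hx⟩
  refine ⟨⟨_, pj_lt i hi, ?_⟩, conj_comm j_f hx⟩
  rw [j_c hi, mul_inv_cancel_right]

theorem f_mem : f ∈ N := by
  rintro x ⟨hi, hx⟩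
  have : f * x * f⁻¹ = x := by rw [← hx, mul_inv_cancel_right]
  rw [this]
  exact ⟨hi, hx⟩

/-- the centralizer of `f` -/
noncomputable abbrev C : Subgroup 𝒢 := centralizer (H858.Loc5.F5 : Set 𝒢)

theorem mem_C {x : 𝒢} : x ∈ C ↔ x * f = f * x := by
  rw [C, H858.Loc5.F5, H858.NormC.centralizer_zpowers, mem_centralizer_iff, f_eq]
  constructor
  · intro h
    exact (h _ rfl).symm
  · rintro h _ rfl
    exact h.symm

theorem C_le : C ≤ N := by
  have h1 := H858.Loc5.directProduct.2.2.2.2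
  rw [C, ← h1]
  refine sup_le ?_ ?_
  · rw [H858.Loc5.F5, zpowers_le, ← f_eq]
    exact f_mem
  · rw [H858.Loc5.J, closure_le]
    rintro _ (rfl | rfl)
    · rw [← s_eq]; exact s_mem
    · rw [← j_eq]; exact j_mem

theorem c0_T : c 0 ∈ T := ⟨⟨0, by norm_num, rfl⟩, c0_f⟩

theorem c143_eq : c 143 = (c 0)⁻¹ := eq_inv_of_mul_eq_one_left c143
theorem c13_eq : c 13 = (c 60)⁻¹ := eq_inv_of_mul_eq_one_left c13

theorem c143_T : c 143 ∈ T := by
  refine ⟨⟨143, by norm_num, rfl⟩, ?_⟩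
  rw [c143_eq]
  exact (show Commute (c 0) f from c0_f).inv_left.eq

/-- **the elements of order 3 commuting with `f`** -/
theorem ord3 {x : 𝒢} (h3 : x ^ 3 = 1) (h1 : x ≠ 1) (hx : x * f = f * x) : ∃ i < 224, x = c i := by
  have h3' : Fact (Nat.Prime 3) := ⟨by norm_num⟩
  have hxC : x ∈ C := mem_C.2 hx
  have hcC : c 0 ∈ C := mem_C.2 c0_f
  have hc3 : c 0 ^ 3 = 1 := by rw [pow_succ, pow_two]; exact c0_pow
  have o1 : orderOf (⟨x, hxC⟩ : C) = 3 := by
    rw [Subgroup.orderOf_mk]; exact orderOf_eq_prime h3 h1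
  have o2 : orderOf (⟨c 0, hcC⟩ : C) = 3 := by
    rw [Subgroup.orderOf_mk]; exact orderOf_eq_prime hc3 c0_ne
  obtain ⟨g, hg⟩ := H858.Abs.exists_conj_prime (p := 3) (P := zpowers (⟨c 0, hcC⟩ : C))
    (P' := zpowers (⟨x, hxC⟩ : C)) (by rw [Nat.card_zpowers, o2]) (by rw [Nat.card_zpowers, o1])
    (by rw [H858.Loc5.card_C]; norm_num)
  have h4 : (⟨x, hxC⟩ : C) ∈ (zpowers (⟨c 0, hcC⟩ : C)).map (MulAut.conj g).toMonoidHom := by
    rw [hg]; exact mem_zpowers _
  obtain ⟨y, hy, hyx⟩ := h4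
  classical
  rw [SetLike.mem_coe, mem_zpowers_iff_mem_range_orderOf, Finset.mem_image] at hy
  obtain ⟨n, hn, rfl⟩ := hy
  rw [o2, Finset.mem_range] at hn
  have h5 : (g : 𝒢) * c 0 ^ n * (g : 𝒢)⁻¹ = x := congrArg Subtype.val hyx
  have h6 : c 0 ^ n ∈ T := by
    interval_cases n
    · exfalso
      apply h1
      rw [← h5]; group
    · rw [pow_one]; exact c0_T
    · have : c 0 ^ 2 = c 143 := by
        rw [c143_eq, eq_comm, inv_eq_iff_mul_eq_one, pow_two, ← mul_assoc]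
        exact c0_pow
      rw [this]; exact c143_T
  have h7 := C_le g.2 _ h6
  rw [h5] at h7
  exact h7.1

end Cfsg.Agent.H382.JM.L52
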