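import Cfsg.Agent.H753.SLFiveTwo
import Cfsg.Agent.Lib.F2MatGroup
import Cfsg.Agent.LieClassical.SLGen

/-!
# Generators of `L₅(2)` (helper382)

`a` of order 31, `b` of order 5 with `b⁻¹ a b = a ^ 2`, and `c` of order 3 commuting with `b` with `(a ^ 11 c) ^ 4 = 1`
generate the group.
-/

set_option autoImplicit false

namespace Cfsg.Agent.H382.JM.L52Gens

open Cfsg.Agent.Lib Cfsg.Agent.Lib.F2MatGroup

/-- the group -/
abbrev SL := Matrix.SpecialLinearGroup (Fin 5) (ZMod 2)

/-- order 31 -/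
def a : SL := ⟨!![0, 0, 0, 0, 1; 1, 0, 0, 0, 0; 0, 1, 0, 0, 1; 0, 0, 1, 0, 0; 0, 0, 0, 1, 0], by decide +kernel⟩
/-- order 5 -/
def b : SL := ⟨!![1, 1, 0, 1, 0; 0, 1, 1, 1, 0; 0, 0, 0, 0, 1; 0, 1, 0, 0, 0; 0, 1, 0, 1, 0], by decide +kernel⟩
/-- order 3 -/
def c : SL := ⟨!![1, 1, 0, 0, 1; 0, 1, 1, 0, 0; 0, 1, 0, 0, 0; 0, 1, 0, 1, 1; 0, 1, 1, 1, 0], by decide +kernel⟩

/-- the program -/
def slp : List (List ℕ) := [[0, 0, 0, 0, 0, 0, 0, 0, 0, 0, 0, 0, 0, 0, 0, 0, 0, 0, 0, 0, 0, 0, 0, 0, 0, 0, 0, 0, 0, 0],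
  [2, 2, 2, 2],
  [4, 4],
  [3, 5],
  [0, 0, 0, 0, 0, 0],
  [3, 0, 6],
  [6, 0, 5],
  [8, 0, 5],
  [5, 0, 10],
  [6, 4, 11],
  [9, 0, 10],
  [13, 0, 8],
  [12, 7, 11],
  [11, 0, 14],
  [11, 3, 16],
  [15, 0, 14],
  [16, 2, 15],
  [18, 0, 15],
  [18, 6, 17],
  [16, 6, 21],
  [19, 0, 20],
  [22, 0, 19],
  [21, 0, 22],
  [22, 17, 23],
  [25, 0, 22],
  [22, 0, 27],
  [26, 13, 25],
  [25, 0, 28],
  [28, 0, 27],
  [30, 0, 27],
  [27, 6, 32],
  [30, 0, 31],
  [32, 22, 31],
  [34, 0, 31],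
  [34, 0, 33],
  [35, 0, 34],
  [37, 31, 34],
  [37, 0, 36],
  [38, 0, 37],
  [41, 0, 36],
  [39, 0, 40],
  [41, 8, 40],
  [42, 0, 41],
  [45, 38, 40],
  [43, 0, 44],
  [43, 0, 46],
  [45, 0, 46],
  [49, 0, 44]]

/-- the positions of the transvections -/
def pos : List ℕ := [0, 39, 40, 36, 41, 34, 0, 32, 30, 29, 25, 31, 0, 22, 18, 16, 26, 12, 0, 7, 8, 17, 5, 0, 0]

/-- the codes of the generators -/
def codes : List ℕ := [8538160, 10568139, 15534291]

/-- the code of a transvection -/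
def tc (p : ℕ) : ℕ := F2Mat.one 5 + 2 ^ p

/-- the check -/
def chk (L : List ℕ) : Bool := (List.range 25).all fun p =>
  Nat.beq (p / 5) (p % 5) || Nat.beq (get (F2Mat.one 5) L (pos.getD p 0)) (tc p)

theorem check1 : run 5 slp codes chk = true := by decide +kernel

/-- the relations -/
def rels : List (List ℕ × List ℕ) := [
  (List.replicate 31 0, []), (List.replicate 5 1, []), ([0, 1], [1, 0, 0]), ([2, 2, 2], []), ([1, 2], [2, 1]),
  ([0, 0, 0, 0, 0, 0, 0, 0, 0, 0, 0, 2, 0, 0, 0, 0, 0, 0, 0, 0, 0, 0, 0, 2,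
    0, 0, 0, 0, 0, 0, 0, 0, 0, 0, 0, 2, 0, 0, 0, 0, 0, 0, 0, 0, 0, 0, 0, 2], [])]

/-- the non-relations -/
def nrels : List (List ℕ × List ℕ) := [([0], []), ([1], []), ([2], [])]

theorem check2 : check 5 codes [] rels nrels = true := by decide +kernel

/-- the map to the general linear group -/
abbrev ι : SL →* GL (Fin 5) (ZMod 2) := Matrix.SpecialLinearGroup.toGL

theorem ι_inj : Function.Injective ι := Matrix.SpecialLinearGroup.toGL_injective

theorem codes_abc : List.Forall₂ (Codes 5) ([a, b, c].map ι) codes := by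
  refine .cons ?_ (.cons ?_ (.cons ?_ .nil))
  · change (a : Matrix (Fin 5) (Fin 5) (ZMod 2)) = F2Mat.toMat 5 8538160
    decide +kernel
  · change (b : Matrix (Fin 5) (Fin 5) (ZMod 2)) = F2Mat.toMat 5 10568139
    decide +kernel
  · change (c : Matrix (Fin 5) (Fin 5) (ZMod 2)) = F2Mat.toMat 5 15534291
    decide +kernel

theorem sound2 : (∀ p ∈ rels, evG [a, b, c] p.1 = evG [a, b, c] p.2) ∧
    (∀ p ∈ nrels, evG [a, b, c] p.1 ≠ evG [a, b, c] p.2) := by
  have h := check_sound (by norm_num) codes_abc check2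
  rw [runG_nil] at h
  refine ⟨fun p hp => ?_, fun p hp he => ?_⟩
  · apply ι_inj
    rw [← evG_map, ← evG_map]
    exact h.1 p hp
  · apply h.2 p hp
    rw [evG_map, evG_map, he]

theorem tc_mat : ∀ i j : Fin 5, i ≠ j →
    F2Mat.toMat 5 (tc (5 * i + j)) = 1 + Matrix.single i j (1 : ZMod 2) := by decide +kernel

theorem transvection_mem (i j : Fin 5) (h : i ≠ j) (x : ZMod 2) :
    (Matrix.SpecialLinearGroup.transvection h x : SL) ∈ Subgroup.closure {a, b, c} := by
  have hx : x = 0 ∨ x = 1 := by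
    revert x; decide
  rcases hx with rfl | rfl
  · have : (Matrix.SpecialLinearGroup.transvection h 0 : SL) = 1 := by
      apply Subtype.ext
      show 1 + Matrix.single i j (0 : ZMod 2) = 1
      rw [Matrix.single_zero, add_zero]
    rw [this]
    exact Subgroup.one_mem _
  · obtain ⟨L', h', hk⟩ := run_sound codes_abc check1
    have h1 := (List.all_eq_true.1 hk) (5 * i + j) (List.mem_range.2 (by omega))
    rw [Bool.or_eq_true] at h1
    rcases h1 with h1 | h1
    · exfalso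
      have h2 := Nat.eq_of_beq_eq_true h1
      apply h
      apply Fin.ext
      omega
    · have h2 := Nat.eq_of_beq_eq_true h1
      have h3 := codes_get h' (pos.getD (5 * i + j) 0)
      rw [runG_map, getG_map, h2] at h3
      have h4 : (Matrix.SpecialLinearGroup.transvection h (1 : ZMod 2) : SL) =
          getG (runG slp [a, b, c]) (pos.getD (5 * i + j) 0) := by
        apply ι_inj
        apply Units.ext
        unfold Codes at h3
        rw [h3, tc_mat i j h]
        rfl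
      rw [h4]
      apply getG_mem
      apply runG_mem
      intro g hg
      simp only [List.mem_cons, List.not_mem_nil, or_false] at hg
      apply Subgroup.subset_closure
      exact hg

theorem closure_eq : Subgroup.closure {a, b, c} = ⊤ := by
  rw [eq_top_iff, ← Cfsg.Agent.LieClassical.SLGen.closure_transvections (ι := Fin 5) (F := ZMod 2), Subgroup.closure_le]
  rintro _ ⟨i, j, h, x, rfl⟩
  exact transvection_mem i j h x

theorem ev_pow {G : Type*} [Group G] (L : List G) (i n : ℕ) : evG L (List.replicate n i) = getG L i ^ n := by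
  induction n with
  | zero => rw [List.replicate_zero, evG_nil, pow_zero]
  | succ n ih => rw [List.replicate_succ, evG_cons, ih, pow_succ']

theorem ga : getG [a, b, c] 0 = a := rfl
theorem gb : getG [a, b, c] 1 = b := rfl
theorem gc : getG [a, b, c] 2 = c := rfl

theorem a_pow : a ^ 31 = 1 := by
  have := sound2.1 (List.replicate 31 0, []) (by simp [rels])
  rwa [ev_pow, evG_nil, ga] at this

theorem b_pow : b ^ 5 = 1 := by
  have := sound2.1 (List.replicate 5 1, []) (by simp [rels])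
  rwa [ev_pow, evG_nil, gb] at this

theorem a_b : a * b = b * a ^ 2 := by
  have := sound2.1 ([0, 1], [1, 0, 0]) (by simp [rels])
  simp only [evG_cons, evG_nil, mul_one, ga, gb] at this
  rw [pow_two]
  exact this

theorem c_pow : c ^ 3 = 1 := by
  have := sound2.1 ([2, 2, 2], []) (by simp [rels])
  simp only [evG_cons, evG_nil, mul_one, gc] at this
  rw [pow_succ, pow_two, mul_assoc]
  exact this

theorem b_c : b * c = c * b := by
  have := sound2.1 ([1, 2], [2, 1]) (by simp [rels])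
  simp only [evG_cons, evG_nil, mul_one, gb, gc] at this
  exact this

theorem ac_pow : (a ^ 11 * c) ^ 4 = 1 := by
  have := sound2.1 ([0, 0, 0, 0, 0, 0, 0, 0, 0, 0, 0, 2, 0, 0, 0, 0, 0, 0, 0, 0, 0, 0, 0, 2,
    0, 0, 0, 0, 0, 0, 0, 0, 0, 0, 0, 2, 0, 0, 0, 0, 0, 0, 0, 0, 0, 0, 0, 2], []) (by simp [rels])
  simp only [evG_cons, evG_nil, mul_one, ga, gc] at this
  simp only [pow_succ, pow_zero, one_mul, mul_assoc]
  exact this

theorem a_ne : a ≠ 1 := by
  have := sound2.2 ([0], []) (by simp [nrels])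
  simpa only [evG_cons, evG_nil, mul_one, ga] using this

theorem b_ne : b ≠ 1 := by
  have := sound2.2 ([1], []) (by simp [nrels])
  simpa only [evG_cons, evG_nil, mul_one, gb] using this

theorem c_ne : c ≠ 1 := by
  have := sound2.2 ([2], []) (by simp [nrels])
  simpa only [evG_cons, evG_nil, mul_one, gc] using this

/-- **generators** of a group isomorphic to `L₅(2)` -/
theorem exists_gens {F : Type} [Field F] [Fintype F] (hF : Fintype.card F = 2) {S : Type*} [Group S]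
    (e : S ≃* Matrix.ProjectiveSpecialLinearGroup (Fin 5) F) : ∃ a b c : S, a ^ 31 = 1 ∧ a ≠ 1 ∧ b ^ 5 = 1 ∧ b ≠ 1 ∧
      a * b = b * a ^ 2 ∧ c ^ 3 = 1 ∧ c ≠ 1 ∧ b * c = c * b ∧ (a ^ 11 * c) ^ 4 = 1 ∧
      Subgroup.closure {a, b, c} = ⊤ := by
  let φ : SL ≃* S := (e.trans (Cfsg.Agent.H753.FiveTwo.pslEquiv hF)).symm
  have hne : ∀ x : SL, x ≠ 1 → φ x ≠ 1 := fun x hx h => hx (φ.injective (by rw [h, map_one]))
  refine ⟨φ a, φ b, φ c, ?_, hne a a_ne, ?_, hne b b_ne, ?_, ?_, hne c c_ne, ?_, ?_, ?_⟩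
  · rw [← map_pow, a_pow, map_one]
  · rw [← map_pow, b_pow, map_one]
  · rw [← map_mul, a_b, map_mul, map_pow]
  · rw [← map_pow, c_pow, map_one]
  · rw [← map_mul, b_c, map_mul]
  · rw [← map_pow, ← map_mul, ← map_pow, ac_pow, map_one]
  · have h1 := congrArg (Subgroup.map φ.toMonoidHom) closure_eq
    rw [MonoidHom.map_closure, ← MonoidHom.range_eq_map, MonoidHom.range_eq_top.2 φ.surjective] at h1
    rw [← h1]
    congr 1
    ext x
    simp [eq_comm]

end Cfsg.Agent.H382.JM.L52Gens
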