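import Cfsg.Agent.H382.JM.L52Data
import Cfsg.Agent.H858.Loc5


/-!
# S5580, row `L₅(2)`: soundness of the computation (helper382)
-/

set_option autoImplicit false

open Cfsg

namespace Cfsg.Agent.H382.JM.L52

open Cfsg.Agent.Lib Cfsg.Agent.Lib.F2MatGroup
open Cfsg.Agent.J4.Rep112 Cfsg.Agent.J4.Lower
open Cfsg.Agent.J4.LowerData (slpQ)
open Cfsg.Agent.J4.Classes (runG_append getG_runG)
open Cfsg.Agent.J4.Beta (evG_append)
open Cfsg.Agent.H858.VK Cfsg.Agent.H858.Data
open Cfsg.Agent.H382.JM.L52Data

local notation "𝒢" => Cfsg.Spor.J4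

/-- the values of the program -/
noncomputable def L : List 𝒢 := runG slp LX

theorem map_L : L.map rho = runG (slpQ ++ (slpX ++ slp)) mgens := by
  unfold L
  rw [← List.append_assoc, runG_append, ← map_LX, runG_map]

theorem V8_eq (A C : ℕ) : V8 A C = F2Mat.vmul 112 (F2Mat.vmul 112 (F2Mat.vmul 112 (F2Mat.vmul 112 (F2Mat.vmul 112
    (F2Mat.vmul 112 (F2Mat.vmul 112 (F2Mat.vmul 112 v0 A) C) A) C) A) C) A) C := by
  unfold V8
  simp only [F2Mat.force_eq]

/-- soundness of the program -/
theorem sound_of {k : List ℕ → Bool} (h : run 112 (slpQ ++ (slpX ++ slp)) codes k = true) :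
    ∃ L', List.Forall₂ (Codes 112) (L.map rho) L' ∧ k L' = true := by
  rw [map_L]
  exact run_sound codes_gens h

theorem sound_eq {rels : List (List ℕ × List ℕ)}
    (h : run 112 (slpQ ++ (slpX ++ slp)) codes (fun L => eqs 112 rels L) = true) :
    ∀ p ∈ rels, evG L p.1 = evG L p.2 := by
  obtain ⟨L', h', hk⟩ := sound_of h
  intro p hp
  apply rho_injective
  rw [← evG_map, ← evG_map]
  exact eqs_sound h' hk p hp

theorem sound_ne : ∀ p ∈ nrels, evG L p.1 ≠ evG L p.2 := by
  obtain ⟨L', h', hk⟩ := sound_of check3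
  intro p hp h
  exact neqs_sound (by norm_num) h' hk p hp (by rw [evG_map, evG_map, h])

theorem sound_v {r0 : ℕ} (h : run 112 (slpQ ++ (slpX ++ slp)) codes (fun L => vchk r0 L) = true) :
    ∀ i < 224, ∀ r < 2, (i, r0 + r) ∉ exc → (getG L (iu (r0 + r)) * getG L (ic i)) ^ 4 ≠ 1 := by
  obtain ⟨L', h'', hk2⟩ := sound_of h
  intro i hi r hr hx h4
  have hk2 : vchk r0 L' = true := hk2
  unfold vchk at hk2
  rw [List.all_eq_true] at hk2
  have h1 := hk2 i (List.mem_range.2 hi)
  rw [F2Mat.force_eq, List.all_eq_true] at h1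
  have h2 := h1 r (List.mem_range.2 hr)
  rw [Bool.or_eq_true] at h2
  rcases h2 with h2 | h2
  · exact hx (List.contains_iff_mem.1 h2)
  rw [F2Mat.force_eq, Bool.not_eq_true'] at h2
  set A := get (F2Mat.one 112) L' (iu (r0 + r)) with hA
  set C := get (F2Mat.one 112) L' (ic i) with hC
  have cA : Codes 112 (rho (getG L (iu (r0 + r)))) A := by
    rw [← getG_map]; exact codes_get h'' _
  have cC : Codes 112 (rho (getG L (ic i))) C := by
    rw [← getG_map]; exact codes_get h'' _
  have h5 : V8 A C = v0 := by
    apply F2Mat.toVec_inj (n := 112)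
    · rw [V8_eq]; exact F2Mat.vmul_lt _ _
    · unfold v0; norm_num
    · unfold Codes at cA cC
      rw [V8_eq]
      simp only [F2Mat.toVec_vmul, Matrix.vecMul_vecMul]
      rw [← cA, ← cC]
      have h6 : (rho (getG L (iu (r0 + r))) * rho (getG L (ic i))) ^ 4 = 1 := by
        rw [← map_mul, ← map_pow, h4, map_one]
      have h7 := congrArg (fun g : GL (Fin 112) (ZMod 2) => (g : Matrix (Fin 112) (Fin 112) (ZMod 2))) h6
      simp only [pow_succ, pow_zero, one_mul, Units.val_mul, Units.val_one, ← mul_assoc] at h7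
      rw [h7, Matrix.vecMul_one]
  rw [h5, Nat.beq_refl] at h2
  exact absurd h2 (by decide)

theorem sound_v' {i r : ℕ} (hi : i < 224) (hr : r < 6) (hx : (i, r) ∉ exc) :
    (getG L (iu r) * getG L (ic i)) ^ 4 ≠ 1 := by
  rcases (show r < 2 ∨ (2 ≤ r ∧ r < 4) ∨ (4 ≤ r ∧ r < 6) by omega) with h | h | h
  · have := sound_v check4 i hi r h
    rw [Nat.zero_add] at this
    exact this hx
  · have := sound_v check5 i hi (r - 2) (by omega)
    rw [Nat.add_sub_cancel' h.1] at this
    exact this hx
  · have := sound_v check6 i hi (r - 4) (by omega)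
    rw [Nat.add_sub_cancel' h.1] at this
    exact this hx

theorem eq_of {a b : List ℕ} (hh : (a, b) ∈ rel0) : evG L a = evG L b :=
  sound_eq check1 _ (List.mem_append_left _ hh)
theorem ne_of {a b : List ℕ} (hh : (a, b) ∈ nrels) : evG L a ≠ evG L b := sound_ne _ hh

theorem ev_pow (i n : ℕ) : evG L (List.replicate n i) = getG L i ^ n :=
  Cfsg.Agent.J4.Lower.evG_replicate L i n

/-! ### named elements -/

/-- order 31 -/
noncomputable def U : 𝒢 := getG L 244
/-- the involution -/
noncomputable def j0 : 𝒢 := getG L 241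
/-- order 5 -/
noncomputable def f : 𝒢 := getG L 344
/-- generator of the centralizer of `f` -/
noncomputable def s : 𝒢 := getG L 350
/-- generator of the centralizer of `f` -/
noncomputable def j : 𝒢 := getG L 341
/-- the elements of order 3 commuting with `f` -/
noncomputable def c (i : ℕ) : 𝒢 := getG L (ic i)
/-- the basis of `X` -/
noncomputable def z (i : ℕ) : 𝒢 := getG L (iz i)

theorem slp_length : slp.length = 341 := by decide +kernel

theorem getG_L (k : ℕ) : getG L (341 + k) = getG LX k := by
  rw [← slp_length]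
  exact getG_runG slp LX k

theorem f_eq : f = H858.Elem.f := (getG_L 3).trans H858.Elem.f_eq.symm
theorem s_eq : s = H858.Elem.s := (getG_L 9).trans H858.Elem.sg_eq.symm
theorem j_eq : j = H858.Elem.j := (getG_L 0).trans H858.Elem.j_eq.symm

/-! ### relations -/

theorem Upow (r : ℕ) (hr : r < 6) : getG L (iu r) = U ^ er r := by
  have hm : ([iu r], List.replicate (er r) 244) ∈ relU := List.mem_map.2 ⟨r, List.mem_range.2 hr, rfl⟩
  have := sound_eq check1 _ (List.mem_append_right _ (List.mem_append_left _ hm))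
  rw [ev_pow, evG_cons, evG_nil, mul_one] at this
  exact this

theorem c_mem {i : ℕ} (hi : i < 224) (r : ℕ) (hr : r < 6) (hx : (i, r) ∉ exc) : (U ^ er r * c i) ^ 4 ≠ 1 := by
  rw [← Upow r hr]
  exact sound_v' hi hr hx

theorem U_pow : U ^ 31 = 1 := by
  have := eq_of (a := [11, 11, 244]) (b := []) (by decide +kernel)
  simp only [evG_cons, evG_nil, mul_one] at this
  have h1 : getG L 11 = U ^ 15 := Upow 5 (by norm_num)
  rw [h1] at this
  calc U ^ 31 = U ^ 15 * (U ^ 15 * U) := by rw [← pow_succ, ← pow_add]
    _ = 1 := this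

theorem U_f : U * f = f * U ^ 2 := by
  have := eq_of (a := [244, 344]) (b := [344, 244, 244]) (by decide +kernel)
  simp only [evG_cons, evG_nil, mul_one] at this
  rw [pow_two]
  exact this

theorem j0_j0 : j0 * j0 = 1 := by
  have := eq_of (a := [241, 241]) (b := []) (by decide +kernel)
  simp only [evG_cons, evG_nil, mul_one] at this
  exact this

theorem j0_U : j0 * U * j0 * U = 1 := by
  have := eq_of (a := [241, 244, 241, 244]) (b := []) (by decide +kernel)
  simp only [evG_cons, evG_nil, mul_one, ← mul_assoc] at this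
  exact this

theorem j0_f : j0 * f = f * j0 := by
  have := eq_of (a := [241, 344]) (b := [344, 241]) (by decide +kernel)
  simp only [evG_cons, evG_nil, mul_one] at this
  exact this

theorem c0_f : c 0 * f = f * c 0 := by
  have := eq_of (a := [ic 0, 344]) (b := [344, ic 0]) (by decide +kernel)
  simp only [evG_cons, evG_nil, mul_one] at this
  exact this

theorem c0_pow : c 0 * c 0 * c 0 = 1 := by
  have := eq_of (a := [ic 0, ic 0, ic 0]) (b := []) (by decide +kernel)
  simp only [evG_cons, evG_nil, mul_one, ← mul_assoc] at this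
  exact this

theorem c143 : c 143 * c 0 = 1 := by
  have := eq_of (a := [ic 143, ic 0]) (b := []) (by decide +kernel)
  simp only [evG_cons, evG_nil, mul_one] at this
  exact this

theorem c13 : c 13 * c 60 = 1 := by
  have := eq_of (a := [ic 13, ic 60]) (b := []) (by decide +kernel)
  simp only [evG_cons, evG_nil, mul_one] at this
  exact this

theorem c115 : c 115 = j0 * c 0 * j0 := by
  have := eq_of (a := [ic 115]) (b := [241, ic 0, 241]) (by decide +kernel)
  simp only [evG_cons, evG_nil, mul_one, ← mul_assoc] at this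
  exact this

theorem c147 : c 147 = j0 * c 143 * j0 := by
  have := eq_of (a := [ic 147]) (b := [241, ic 143, 241]) (by decide +kernel)
  simp only [evG_cons, evG_nil, mul_one, ← mul_assoc] at this
  exact this

theorem c222 : c 222 = j0 * c 60 * j0 := by
  have := eq_of (a := [ic 222]) (b := [241, ic 60, 241]) (by decide +kernel)
  simp only [evG_cons, evG_nil, mul_one, ← mul_assoc] at this
  exact this

theorem c196 : c 196 = j0 * c 13 * j0 := by
  have := eq_of (a := [ic 196]) (b := [241, ic 13, 241]) (by decide +kernel)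
  simp only [evG_cons, evG_nil, mul_one, ← mul_assoc] at this
  exact this

theorem s_c {i : ℕ} (hi : i < 224) : s * c i = c (ps.getD i 0) * s := by
  have hm : ([350, ic i], [ic (ps.getD i 0), 350]) ∈ relS := List.mem_map.2 ⟨i, List.mem_range.2 hi, rfl⟩
  have := sound_eq check1 _ (List.mem_append_right _ (List.mem_append_right _ hm))
  simp only [evG_cons, evG_nil, mul_one] at this
  exact this

theorem j_c {i : ℕ} (hi : i < 224) : j * c i = c (pj.getD i 0) * j := by
  have hm : ([341, ic i], [ic (pj.getD i 0), 341]) ∈ relJ := List.mem_map.2 ⟨i, List.mem_range.2 hi, rfl⟩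
  have := sound_eq check2 _ (List.mem_append_left _ hm)
  simp only [evG_cons, evG_nil, mul_one] at this
  exact this

theorem z_comm {i k : ℕ} (hi : i < 10) (hk : k < 10) : z i * z k = z k * z i := by
  have hm : ([iz i, iz k], [iz k, iz i]) ∈ relZ :=
    List.mem_flatMap.2 ⟨i, List.mem_range.2 hi, List.mem_map.2 ⟨k, List.mem_range.2 hk, rfl⟩⟩
  have := sound_eq check2 _ (List.mem_append_right _ (List.mem_append_right _ (List.mem_append_right _
    (List.mem_append_right _ (List.mem_append_right _ hm)))))
  simp only [evG_cons, evG_nil, mul_one] at this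
  exact this

theorem U_z {i : ℕ} (hi : i < 10) : U * z i = evG L (tU.getD i []) * U := by
  have hm : ([244, iz i], tU.getD i [] ++ [244]) ∈ rX 244 tU := List.mem_map.2 ⟨i, List.mem_range.2 hi, rfl⟩
  have := sound_eq check2 _ (List.mem_append_right _ (List.mem_append_left _ hm))
  rw [evG_append] at this
  simp only [evG_cons, evG_nil, mul_one] at this
  exact this

theorem f_z {i : ℕ} (hi : i < 10) : f * z i = evG L (tF.getD i []) * f := by
  have hm : ([344, iz i], tF.getD i [] ++ [344]) ∈ rX 344 tF := List.mem_map.2 ⟨i, List.mem_range.2 hi, rfl⟩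
  have := sound_eq check2 _ (List.mem_append_right _ (List.mem_append_right _ (List.mem_append_left _ hm)))
  rw [evG_append] at this
  simp only [evG_cons, evG_nil, mul_one] at this
  exact this

theorem c0_z {i : ℕ} (hi : i < 10) : c 0 * z i = evG L (tA.getD i []) * c 0 := by
  have hm : ([ic 0, iz i], tA.getD i [] ++ [ic 0]) ∈ rX (ic 0) tA := List.mem_map.2 ⟨i, List.mem_range.2 hi, rfl⟩
  have := sound_eq check2 _ (List.mem_append_right _ (List.mem_append_right _ (List.mem_append_right _ (List.mem_append_left _ hm))))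
  rw [evG_append] at this
  simp only [evG_cons, evG_nil, mul_one] at this
  exact this

theorem c60_z {i : ℕ} (hi : i < 10) : c 60 * z i = evG L (tB.getD i []) * c 60 := by
  have hm : ([ic 60, iz i], tB.getD i [] ++ [ic 60]) ∈ rX (ic 60) tB := List.mem_map.2 ⟨i, List.mem_range.2 hi, rfl⟩
  have := sound_eq check2 _ (List.mem_append_right _ (List.mem_append_right _ (List.mem_append_right _ (List.mem_append_right _ (List.mem_append_left _ hm)))))
  rw [evG_append] at this
  simp only [evG_cons, evG_nil, mul_one] at this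
  exact this

theorem U_ne : U ≠ 1 := by
  have := ne_of (a := [244]) (b := []) (by decide +kernel)
  simp only [evG_cons, evG_nil, mul_one] at this
  exact this

theorem z0_ne : z 0 ≠ 1 := by
  have := ne_of (a := [iz 0]) (b := []) (by decide +kernel)
  simp only [evG_cons, evG_nil, mul_one] at this
  exact this

theorem c0_ne : c 0 ≠ 1 := by
  have := ne_of (a := [ic 0]) (b := []) (by decide +kernel)
  simp only [evG_cons, evG_nil, mul_one] at this
  exact this

theorem nc0 : (j0 * c 0 * j0) * z 0 * (j0 * c 143 * j0) * z 0 ≠ z 0 * ((j0 * c 0 * j0) * z 0 * (j0 * c 143 * j0)) := by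
  have := ne_of (a := [241, ic 0, 241, iz 0, 241, ic 143, 241, iz 0])
    (b := [iz 0, 241, ic 0, 241, iz 0, 241, ic 143, 241]) (by decide +kernel)
  simp only [evG_cons, evG_nil, mul_one, ← mul_assoc] at this
  simp only [← mul_assoc]
  exact this

theorem nc60 : (j0 * c 60 * j0) * z 0 * (j0 * c 13 * j0) * z 0 ≠ z 0 * ((j0 * c 60 * j0) * z 0 * (j0 * c 13 * j0)) := by
  have := ne_of (a := [241, ic 60, 241, iz 0, 241, ic 13, 241, iz 0])
    (b := [iz 0, 241, ic 60, 241, iz 0, 241, ic 13, 241]) (by decide +kernel)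
  simp only [evG_cons, evG_nil, mul_one, ← mul_assoc] at this
  simp only [← mul_assoc]
  exact this

end Cfsg.Agent.H382.JM.L52
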